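import Cfsg.Agent.AutChev.Cent
import Cfsg.Agent.AutChev.Count

set_option autoImplicit false
set_option linter.unusedSectionVars false
set_option linter.unusedVariables false

/-!
Fixed points of field automorphisms on Chevalley groups.
-/

namespace Cfsg.Agent.AutChev

open Cfsg.Lie Cfsg.Agent.Chev Cfsg.Agent.ChevGrp Cfsg.Agent.ChevTw Cfsg.Agent.ChevWeyl Cfsg.Agent.ChevU
open Cfsg.Agent.ChevGrp.RGrp

section
variable {D : ChevalleyDatum} (E : DData D) (H : Good D) (R : RootFacts D) {k : Type*} [Field k]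

include R in
/-- torus elements commuting with the `x_i(1)` -/
lemma H_faithful' : ∀ h ∈ (chevG E H k).H, (∀ i : Fin D.rank, h * xG H.toGood2 (D.simple i) 1 * h⁻¹ = xG H.toGood2 (D.simple i) 1) →
    h = 1 := by
  intro h hh hx
  rw [chevG_H, Subgroup.mem_subgroupOf, diag_eq_range R H] at hh
  obtain ⟨c, hc⟩ := hh
  have h1 : (h : GL D.Idx k) = torHom D k (extHom D k (mon (cmat D) c)) := hc.symm
  have h2 : mon (cmat D) c = 1 := by
    funext i
    have h3 := hx i
    have h4 : h * xG H.toGood2 (D.simple i) 1 * h⁻¹ = xG H.toGood2 (D.simple i) (((mon (cmat D) c) i : k) * 1) := by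
      rw [← dHom_simple H (mon (cmat D) c) i 1]
      apply Subtype.ext
      rw [dHom_coe, ← h1]; rfl
    rw [h4] at h3
    have h5 := xG_injective H (H.simple_lt i i.2) h3
    rw [mul_one] at h5
    exact Units.ext h5
  apply Subtype.ext
  rw [h1, h2, map_one, map_one]; rfl

include R in
/-- the torus acts on root elements by scalars -/
lemma H_conj_xG {h : ↥(D.group k)} (hh : h ∈ (chevG E H k).H) {r : ℕ} (hr : r < D.nroots) :
    ∃ z : k, z ≠ 0 ∧ ∀ t : k, h * xG H.toGood2 r t * h⁻¹ = xG H.toGood2 r (z * t) := by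
  rw [chevG_H, Subgroup.mem_subgroupOf, diag_eq_range R H] at hh
  obtain ⟨c, hc⟩ := hh
  refine ⟨((chr D (extHom D k (mon (cmat D) c)) r : kˣ) : k), Units.ne_zero _, fun t => ?_⟩
  rw [← dHom_xG H (mon (cmat D) c) hr t]
  apply Subtype.ext
  rw [dHom_coe]
  have h1 : (h : GL D.Idx k) = torHom D k (extHom D k (mon (cmat D) c)) := hc.symm
  rw [← h1]; rfl

include R in
lemma H_comm {a b : ↥(D.group k)} (ha : a ∈ (chevG E H k).H) (hb : b ∈ (chevG E H k).H) : a * b = b * a :=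
  Subtype.ext (diagonal_comm R H ha hb)

variable (σ : k ≃+* k)

/-- the subgroup generated by the root elements over the fixed field -/
def Lsub (H : Good D) (σ : k ≃+* k) : Subgroup ↥(D.group k) :=
  Subgroup.closure {g | ∃ r t, r < D.nroots ∧ σ t = t ∧ g = xG H.toGood2 r t}

lemma xG_mem_L {r : ℕ} (hr : r < D.nroots) {t : k} (ht : σ t = t) : xG H.toGood2 r t ∈ Lsub H σ :=
  Subgroup.subset_closure ⟨r, t, hr, ht, rfl⟩

lemma L_fixed : ∀ g ∈ Lsub H σ, fAut D σ g = g := by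
  intro g hg
  have : Lsub H σ ≤ ((fAut D σ : ↥(D.group k) →* ↥(D.group k)).eqLocus (MonoidHom.id _)) := by
    unfold Lsub
    rw [Subgroup.closure_le]
    rintro _ ⟨r, t, hr, ht, rfl⟩
    show fAut D σ (xG H.toGood2 r t) = xG H.toGood2 r t
    rw [fAut_xG, ht]
  exact this hg

lemma nG_mem_L (i : Fin D.rank) : nG H.toGood2 (D.simple i) (1 : k) ∈ Lsub H σ := by
  have h1 := H.simple_lt i i.2
  exact mul_mem (mul_mem (xG_mem_L H σ h1 (map_one σ)) (xG_mem_L H σ (Chev.neg_lt H.toGood1 h1) (by simp))) (xG_mem_L H σ h1 (map_one σ))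

lemma fAut_wG (w : List (ℕ × k)) : fAut D σ (wG H.toGood2 w) = wG H.toGood2 (w.map fun p => (p.1, σ p.2)) := by
  unfold wG
  rw [map_list_prod, List.map_map, List.map_map]
  congr 1
  apply List.map_congr_left
  intro p _
  exact fAut_xG H.toGood2 σ p.1 p.2

include R in
/-- fixed points on `U` -/
lemma U_fixed {u : ↥(D.group k)} (hu : u ∈ (chevG E H k).U) (hf : fAut D σ u = u) : u ∈ Lsub H σ := by
  rw [chevG_U, Subgroup.mem_subgroupOf] at hu
  obtain ⟨⟨t, ⟨h1, h2⟩, h3⟩, -⟩ := (⟨(unique_product (F := k) R.tab (elemOfGood H k)).1 (u : GL D.Idx k) hu, trivial⟩ :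
    (∃! t : ℕ → k, (∀ r, ¬ D.IsPosRoot r → t r = 0) ∧
        ((u : GL D.Idx k) : Matrix D.Idx D.Idx k) = D.wordMat k (D.posRoots.map fun r => (r, t r))) ∧ True)
  have h4 : u = wG H.toGood2 (D.posRoots.map fun r => (r, t r)) := by
    apply eq_of_coe
    rw [wG_coe]; exact h2
  have h5 : ((u : GL D.Idx k) : Matrix D.Idx D.Idx k) = D.wordMat k (D.posRoots.map fun r => (r, σ (t r))) := by
    have h6 := fAut_wG H σ (D.posRoots.map fun r => (r, t r))
    rw [← h4, hf] at h6
    have h7 := congrArg (fun g : ↥(D.group k) => ((g : GL D.Idx k) : Matrix D.Idx D.Idx k)) h6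
    simp only [wG_coe, List.map_map] at h7
    exact h7
  have h6 : (fun r => σ (t r)) = t := h3 _ ⟨fun r hr => by simp only [h1 r hr, map_zero], h5⟩
  rw [h4]
  unfold wG
  apply Subgroup.list_prod_mem
  intro x hx
  simp only [List.map_map, List.mem_map, Function.comp] at hx
  obtain ⟨r, hr, rfl⟩ := hx
  apply xG_mem_L H σ _ (congrFun h6 r)
  rw [ChevalleyDatum.posRoots, List.mem_filter, List.mem_range] at hr
  exact hr.1

/-- field automorphisms preserve `U`, `H`, `B` and the `Um` -/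
lemma fAut_gen {P : Fin D.nroots → Prop} {x : ↥(D.group k)} (hx : x ∈ gen (chevG E H k).X P) :
    fAut D σ x ∈ gen (chevG E H k).X P := by
  have : gen (chevG E H k).X P ≤ (gen (chevG E H k).X P).comap (fAut D σ : ↥(D.group k) →* ↥(D.group k)) := by
    rw [gen_le]
    intro r hr y hy
    obtain ⟨t, rfl⟩ := (mem_chevG_X E H r y).1 hy
    show fAut D σ (xG H.toGood2 r t) ∈ gen (chevG E H k).X P
    rw [fAut_xG]
    exact mem_gen hr ((mem_chevG_X E H r _).2 ⟨σ t, rfl⟩)
  exact Subgroup.mem_comap.1 (this hx)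

lemma fAut_H {x : ↥(D.group k)} (hx : x ∈ (chevG E H k).H) : fAut D σ x ∈ (chevG E H k).H := by
  have h1 : (chevG E H k).H ≤ ((chevG E H k).H).comap (fAut D σ : ↥(D.group k) →* ↥(D.group k)) := by
    rw [chevG_H]
    apply diag_le H.toGood2
    intro r hr c hc
    show fAut D σ (hG H.toGood2 r c) ∈ (D.diagonalSubgroup k).subgroupOf (D.group k)
    have : fAut D σ (hG H.toGood2 r c) = hG H.toGood2 r (σ c) := by
      unfold hG Chev.nG
      simp only [map_mul, fAut_xG, map_neg, map_inv₀, map_one]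
    rw [this]
    exact diag_mem H.toGood2 hr (by rw [ne_eq, map_eq_zero_iff _ σ.injective]; exact hc)
  exact Subgroup.mem_comap.1 (h1 hx)

lemma nd_mem_L (L : List (Fin D.rank)) : (chevG E H k).nd L ∈ Lsub H σ := by
  induction L with
  | nil => rw [nd_nil]; exact one_mem _
  | cons i L ih => rw [nd_cons, chevG_nn]; exact mul_mem (nG_mem_L H σ i) ih

include R in
/-- fixed points -/
theorem fixed_eq {g : ↥(D.group k)} (hf : fAut D σ g = g) :
    ∃ a ∈ Lsub H σ, ∃ h ∈ (chevG E H k).H, fAut D σ h = h ∧ g = a * h := by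
  have hg : g ∈ (chevG E H k).Grp := by rw [chevG_Grp E H]; trivial
  obtain ⟨b, hb, m, hm, b', hb', e⟩ := exists_bnb hg
  obtain ⟨u, hu⟩ := exists_act hm
  obtain ⟨b'', hb'', x, hx, e2⟩ := exists_bnu hu hm hb'
  obtain ⟨L, h0, hh0, e3⟩ := exists_nd hm
  -- `g = b1 * nd L * x1`
  have hndN : (chevG E H k).nd L ∈ (chevG E H k).N := by
    have : (chevG E H k).nd L = m * h0⁻¹ := by rw [e3]; group
    rw [this]; exact mul_mem hm (inv_mem ((chevG E H k).H_le_N hh0))
  have hndA : (chevG E H k).Act ((chevG E H k).nd L) u := by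
    have : (chevG E H k).nd L = m * h0⁻¹ := by rw [e3]; group
    rw [this]
    have := hu.mul (act_H (inv_mem hh0))
    rwa [mul_one] at this
  obtain ⟨b1, hb1, x1, hx1, e4⟩ := exists_bnu hndA hndN (b := h0 * b') (mul_mem ((chevG E H k).H_le_B hh0) hb')
  have e5 : g = (b * b1) * (chevG E H k).nd L * x1 := by
    have e4' : g = b * ((chevG E H k).nd L * (h0 * b')) := by rw [e, e3]; group
    rw [e4', e4]; group
  have hbb : b * b1 ∈ (chevG E H k).B := mul_mem hb hb1
  obtain ⟨v, hv, h1, hh1, e6⟩ := mem_B.1 hbb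
  have hFb : fAut D σ (b * b1) ∈ (chevG E H k).B := by
    rw [e6, map_mul]
    exact mem_B.2 ⟨_, fAut_gen E H σ hv, _, fAut_H E H σ hh1, rfl⟩
  have e7 : fAut D σ (b * b1) * (chevG E H k).nd L * fAut D σ x1 = (b * b1) * (chevG E H k).nd L * x1 := by
    have e8 := congrArg (fAut D σ) e5
    rw [hf, map_mul, map_mul, L_fixed H σ _ (nd_mem_L E H σ L)] at e8
    rw [← e8, ← e5]
  obtain ⟨e8, e9⟩ := bnu_unique hndA hFb hbb (fAut_gen E H σ hx1) hx1 e7
  -- the two factors of `b b1`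
  have e10 : fAut D σ v = v ∧ fAut D σ h1 = h1 := by
    rw [e6, map_mul] at e8
    have h2 : v⁻¹ * fAut D σ v = h1 * (fAut D σ h1)⁻¹ := by
      rw [inv_mul_eq_iff_eq_mul, ← mul_assoc, ← e8, mul_inv_cancel_right]
    have h3 : v⁻¹ * fAut D σ v ∈ (chevG E H k).U := mul_mem (inv_mem hv) (fAut_gen E H σ hv)
    have h4 : v⁻¹ * fAut D σ v ∈ (chevG E H k).H := by
      rw [h2]; exact mul_mem hh1 (inv_mem (fAut_H E H σ hh1))
    have h5 : v⁻¹ * fAut D σ v = 1 := (chevG E H k).UH _ h3 h4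
    constructor
    · exact (inv_mul_eq_one.1 h5).symm
    · rw [h5] at h2
      exact (mul_inv_eq_one.1 h2.symm).symm
  have hh' : (((chevG E H k).nd L)⁻¹ * h1 * (chevG E H k).nd L) ∈ (chevG E H k).H := N_conj_H' hndN hh1
  have hf' : fAut D σ (((chevG E H k).nd L)⁻¹ * h1 * (chevG E H k).nd L) = ((chevG E H k).nd L)⁻¹ * h1 * (chevG E H k).nd L := by
    rw [map_mul, map_mul, map_inv, L_fixed H σ _ (nd_mem_L E H σ L), e10.2]
  obtain ⟨h', hh'eq⟩ : ∃ h', h' = ((chevG E H k).nd L)⁻¹ * h1 * (chevG E H k).nd L := ⟨_, rfl⟩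
  rw [← hh'eq] at hh' hf'
  refine ⟨v * (chevG E H k).nd L * (h' * x1 * h'⁻¹), ?_, h', hh', hf', ?_⟩
  · refine mul_mem (mul_mem (U_fixed E H R σ hv e10.1) (nd_mem_L E H σ L)) ?_
    apply U_fixed E H R σ
    · exact H_norm_gen (R := chevG E H k) (fun r => E.rp.wsys.Pos r) h' hh' x1 (Um_le_U _ hx1)
    · rw [map_mul, map_mul, map_inv, hf', e9]
  · rw [e5, e6, hh'eq]; group

end

end Cfsg.Agent.AutChev
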