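import Cfsg.Agent.AutChev.Fix

set_option autoImplicit false
set_option linter.unusedSectionVars false
set_option linter.unusedVariables false

/-!
Centralizers and normalizers of subfield subgroups.
-/

namespace Cfsg.Agent.AutChev

open Cfsg.Lie Cfsg.Agent.Chev Cfsg.Agent.ChevGrp Cfsg.Agent.ChevTw Cfsg.Agent.ChevWeyl Cfsg.Agent.ChevU
open Cfsg.Agent.ChevGrp.RGrp

section
variable {D : ChevalleyDatum} (E : DData D) (H : Good D) (R : RootFacts D) {k : Type*} [Field k] (σ : k ≃+* k)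

include E R in
/-- the centralizer of the subgroup over the fixed field is trivial -/
theorem centralizer_L {c : ↥(D.group k)} (h : ∀ x ∈ Lsub H σ, c * x * c⁻¹ = x) : c = 1 := by
  have hp : ∀ i : Fin D.rank, ((E.rp.wsys.p i : Fin D.nroots) : ℕ) = D.simple i := fun i => E.hp i
  have hn : ∀ i : Fin D.rank, ((E.rp.wsys.neg (E.rp.wsys.p i) : Fin D.nroots) : ℕ) = D.neg (D.simple i) := fun i => by
    rw [← E.hp i]; exact E.hneg _
  have hx : ∀ i : Fin D.rank, xG H.toGood2 (D.simple i) (1 : k) ∈ Lsub H σ := fun i =>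
    xG_mem_L H σ (H.simple_lt i i.2) (map_one σ)
  have hy : ∀ i : Fin D.rank, xG H.toGood2 (D.neg (D.simple i)) (1 : k) ∈ Lsub H σ := fun i =>
    xG_mem_L H σ (Chev.neg_lt H.toGood1 (H.simple_lt i i.2)) (map_one σ)
  have h1 : c ∈ (chevG E H k).H := by
    apply mem_H_of (by rw [chevG_Grp E H]; trivial)
    · intro i
      refine ⟨xG H.toGood2 (D.simple i) 1, ?_, xG_ne_one H (H.simple_lt i i.2) one_ne_zero, ?_⟩
      · rw [mem_chevG_X, hp]; exact ⟨1, rfl⟩
      · rw [h _ (hx i)]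
        exact (chevG E H k).X_le_U (E.rp.wsys.pos_p i) (by rw [mem_chevG_X, hp]; exact ⟨1, rfl⟩)
    · intro i
      have hneg : ¬ E.rp.wsys.Pos (E.rp.wsys.neg (E.rp.wsys.p i)) := by
        rw [E.rp.wsys.pos_neg_iff, not_not]; exact E.rp.wsys.pos_p i
      refine ⟨xG H.toGood2 (D.neg (D.simple i)) 1, ?_, xG_ne_one H (Chev.neg_lt H.toGood1 (H.simple_lt i i.2)) one_ne_zero, ?_⟩
      · rw [mem_chevG_X, hn]; exact ⟨1, rfl⟩
      · rw [h _ (hy i)]
        exact (chevG E H k).X_le_V hneg (by rw [mem_chevG_X, hn]; exact ⟨1, rfl⟩)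
  exact H_faithful' E H R c h1 fun i => h _ (hx i)

include R in
/-- fixed torus elements normalize the subgroup over the fixed field -/
lemma H_norm_L {h : ↥(D.group k)} (hh : h ∈ (chevG E H k).H) (hf : fAut D σ h = h) :
    ∀ x ∈ Lsub H σ, h * x * h⁻¹ ∈ Lsub H σ := by
  intro x hx
  have : Lsub H σ ≤ (Lsub H σ).comap (MulAut.conj h).toMonoidHom := by
    conv_lhs => unfold Lsub
    rw [Subgroup.closure_le]
    rintro _ ⟨r, t, hr, ht, rfl⟩
    show h * xG H.toGood2 r t * h⁻¹ ∈ Lsub H σ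
    obtain ⟨z, hz, h1⟩ := H_conj_xG E H R hh hr
    have h2 : σ z = z := by
      have h3 := h1 1
      have h4 := congrArg (fAut D σ) h3
      rw [map_mul, map_mul, map_inv, hf, fAut_xG, fAut_xG, map_one, h3, mul_one] at h4
      exact (xG_injective H hr h4).symm
    rw [h1]
    exact xG_mem_L H σ hr (by rw [map_mul, h2, ht])
  exact this hx

include E R in
/-- commutators of fixed points -/
theorem comm_fixed {g x : ↥(D.group k)} (hg : fAut D σ g = g) (hx : fAut D σ x = x) : g * x * g⁻¹ * x⁻¹ ∈ Lsub H σ := by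
  obtain ⟨a, ha, h, hh, hfh, rfl⟩ := fixed_eq E H R σ hg
  obtain ⟨b, hb, h', hh', hfh', rfl⟩ := fixed_eq E H R σ hx
  have h1 := H_norm_L E H R σ hh hfh
  have h2 := H_norm_L E H R σ hh' hfh'
  have e : a * h * (b * h') * (a * h)⁻¹ * (b * h')⁻¹ =
      a * (h * b * h⁻¹) * ((h' * a * h'⁻¹)⁻¹) * b⁻¹ := by
    have hc := H_comm E H R hh hh'
    have e1 : a * h * (b * h') * (a * h)⁻¹ * (b * h')⁻¹ = a * (h * b * h⁻¹) * (h * h' * h⁻¹ * a⁻¹ * h'⁻¹) * b⁻¹ := by group
    rw [e1, hc]; group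
  rw [e]
  exact mul_mem (mul_mem (mul_mem ha (h1 b hb)) (inv_mem (h2 a ha))) (inv_mem hb)

include E R in
/-- normalizers of the groups between `L` and the fixed points -/
theorem mem_normalizer_iff_fixed {K : Subgroup ↥(D.group k)} (hLK : Lsub H σ ≤ K) (hK : ∀ x ∈ K, fAut D σ x = x) (g : ↥(D.group k)) :
    g ∈ Subgroup.normalizer (K : Set ↥(D.group k)) ↔ fAut D σ g = g := by
  constructor
  · intro hg
    have h1 : g⁻¹ * fAut D σ g = 1 := by
      apply centralizer_L E H R σ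
      intro x hx
      have h2 := hK _ ((Subgroup.mem_normalizer_iff.1 hg x).1 (hLK hx))
      rw [map_mul, map_mul, map_inv, hK x (hLK hx)] at h2
      have e : g⁻¹ * fAut D σ g * x * (g⁻¹ * fAut D σ g)⁻¹ = g⁻¹ * (fAut D σ g * x * (fAut D σ g)⁻¹) * g := by group
      rw [e, h2]; group
    exact (inv_mul_eq_one.1 h1).symm
  · intro hg
    have key : ∀ g : ↥(D.group k), fAut D σ g = g → ∀ x ∈ K, g * x * g⁻¹ ∈ K := by
      intro g hg x hx
      have h1 := hLK (comm_fixed E H R σ hg (hK x hx))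
      have := K.mul_mem h1 hx
      rwa [inv_mul_cancel_right] at this
    rw [Subgroup.mem_normalizer_iff]
    intro x
    constructor
    · exact key g hg x
    · intro hx
      have h2 := key g⁻¹ (by rw [map_inv, hg]) _ hx
      have e : g⁻¹ * (g * x * g⁻¹) * g⁻¹⁻¹ = x := by group
      rwa [e] at h2

/-- entries fixed by `σ` -/
lemma fixed_iff (g : ↥(D.group k)) : fAut D σ g = g ↔
    ∀ i j : D.Idx, σ (((g : GL D.Idx k) : Matrix D.Idx D.Idx k) i j) = ((g : GL D.Idx k) : Matrix D.Idx D.Idx k) i j := by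
  constructor
  · intro h i j
    have h1 := congrArg (fun g : ↥(D.group k) => ((g : GL D.Idx k) : Matrix D.Idx D.Idx k) i j) h
    exact h1
  · intro h
    apply eq_of_coe
    ext i j
    exact h i j

end

end Cfsg.Agent.AutChev
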